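import Mathlib
import Cfsg.Prelude.Def_OddOrderLocal
import Cfsg.Statements.S1405
import Cfsg.Statements.S1410
import Cfsg.Statements.S1411
import Cfsg.Statements.S1455
import Cfsg.Agent.S1450
import Cfsg.Agent.S3743
import Cfsg.Agent.Lib.Helper46.BG.NarrowEA
import Cfsg.Agent.Lib.Helper23.Transitivity3
import Cfsg.Agent.Lib.Helper47.Minimal
import Cfsg.Agent.Lib.Helper34.NPC

/-!
Bender–Glauberman Lemma 10.8 (statement S1414: the subgroup `M_β`), derived from
Theorem 10.2 (S1405), p-length one (S1410), `P ≤ N(P)'` (S1411) and the structure theorem for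
solvable groups with a narrow Sylow subgroup (S1455), all taken as hypotheses.
-/

set_option autoImplicit false

namespace Cfsg.Agent.Lib.Helper46.BG

open Cfsg
open scoped Pointwise

universe u

section General

variable {G : Type u} [Group G] [Finite G]

theorem sub_isSolvable (hG : IsMinSimpleOddOrder G) {M : Subgroup G} (hM : M ≠ ⊤) :
    Group.IsSolvable ↥M := hG.2.2.2 M hM

theorem sub_odd (hG : IsMinSimpleOddOrder G) (M : Subgroup G) : Odd (Nat.card ↥M) :=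
  Odd.of_dvd_nat hG.1 (Subgroup.card_subgroup_dvd_card M)

theorem prime_ne_two (hG : IsMinSimpleOddOrder G) {p : ℕ} (hp : p ∣ Nat.card G) : p ≠ 2 := by
  rintro rfl
  exact (Nat.not_even_iff_odd.mpr hG.1) (even_iff_two_dvd.mpr hp)

/-- A Sylow `p`-subgroup of `M` whose normalizer in `G` lies in `M` is a Sylow `p`-subgroup of
`G`. -/
theorem exists_sylow_eq_map {p : ℕ} [Fact p.Prime] (M : Subgroup G) (S : Sylow p ↥M)
    (hN : Subgroup.normalizer (((S : Subgroup ↥M).map M.subtype : Subgroup G) : Set G) ≤ M) :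
    ∃ P : Sylow p G, (P : Subgroup G) = (S : Subgroup ↥M).map M.subtype := by
  have hSp : IsPGroup p ((S : Subgroup ↥M).map M.subtype) := S.isPGroup'.map _
  obtain ⟨P, hP⟩ := hSp.exists_le_sylow
  refine ⟨P, ?_⟩
  apply Cfsg.Agent.Lib.Helper47.eq_of_inf_normalizer_le P.isPGroup' hP
  rintro x ⟨hxP, hxN⟩
  have hxM : x ∈ M := hN hxN
  have hQ : IsPGroup p (((P : Subgroup G) ⊓ M).subgroupOf M) :=
    (P.isPGroup'.to_le inf_le_left).comap_of_injective M.subtype M.subtype_injective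
  have hTQ : (S : Subgroup M) ≤ ((P : Subgroup G) ⊓ M).subgroupOf M := by
    intro t ht
    rw [Subgroup.mem_subgroupOf]
    exact ⟨hP ⟨t, ht, rfl⟩, t.2⟩
  have hQT := S.is_maximal' hQ hTQ
  have : (⟨x, hxM⟩ : M) ∈ ((P : Subgroup G) ⊓ M).subgroupOf M := by
    rw [Subgroup.mem_subgroupOf]
    exact ⟨hxP, hxM⟩
  rw [hQT] at this
  exact ⟨⟨x, hxM⟩, this, rfl⟩

/-- A Sylow subgroup has a complement in its normalizer (Schur–Zassenhaus). -/
theorem exists_isComplIn_normalizer {p : ℕ} [Fact p.Prime] (P : Sylow p G) :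
    ∃ V : Subgroup G,
      Cfsg.IsComplIn (P : Subgroup G) V (Subgroup.normalizer ((P : Subgroup G) : Set G)) := by
  set N : Subgroup G := Subgroup.normalizer ((P : Subgroup G) : Set G) with hN
  have hPN : (P : Subgroup G) ≤ N := Subgroup.le_normalizer
  haveI : ((P : Subgroup G).subgroupOf N).Normal := Subgroup.normal_in_normalizer
  have hcop : (Nat.card ((P : Subgroup G).subgroupOf N)).Coprime
      ((P : Subgroup G).subgroupOf N).index := by
    have h1 : Nat.card ((P : Subgroup G).subgroupOf N) = Nat.card (P : Subgroup G) :=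
      Nat.card_congr (Subgroup.subgroupOfEquivOfLe hPN).toEquiv
    obtain ⟨n, hn⟩ := IsPGroup.iff_card.mp P.2
    rw [h1, hn]
    apply Nat.Coprime.pow_left
    rw [Nat.Prime.coprime_iff_not_dvd Fact.out]
    intro hdvd
    apply P.not_dvd_index
    exact hdvd.trans (Dvd.intro _ (Subgroup.relIndex_mul_index hPN))
  obtain ⟨K, hK⟩ := Subgroup.exists_right_complement'_of_coprime hcop
  refine ⟨K.map N.subtype, hPN, Subgroup.map_subtype_le K, ?_, ?_⟩
  · rw [eq_bot_iff]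
    rintro x ⟨hxP, y, hyK, rfl⟩
    have h1 : y ∈ ((P : Subgroup G).subgroupOf N) ⊓ K := ⟨Subgroup.mem_subgroupOf.mpr hxP, hyK⟩
    rw [hK.disjoint.eq_bot, Subgroup.mem_bot] at h1
    rw [Subgroup.mem_bot, h1]
    rfl
  · intro m hm
    obtain ⟨⟨a, b⟩, hab⟩ := hK.2 ⟨m, hm⟩
    refine ⟨a.1, Subgroup.mem_subgroupOf.mp a.2, b.1, ⟨b.1, b.2, rfl⟩, ?_⟩
    have h1 := congrArg Subtype.val hab
    simpa using h1.symm

/-- A `p`-subgroup of `O_{q',q}(X)` with `p ≠ q` lies in `O_{q'}(X)`. -/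
theorem le_pPrimeCore_of_le_pPrimePCore {X : Type*} [Group X] [Finite X] (p q : ℕ)
    [Fact p.Prime] [Fact q.Prime] (hne : p ≠ q) (S : Subgroup X) (hS : IsPGroup p S)
    (hle : S ≤ pPrimePCore q X) : S ≤ pPrimeCore q X := by
  have h1 : S.map (QuotientGroup.mk' (pPrimeCore q X)) ≤ pCore q (X ⧸ pPrimeCore q X) :=
    Subgroup.map_le_iff_le_comap.mpr hle
  have h2 : IsPGroup q (S.map (QuotientGroup.mk' (pPrimeCore q X))) :=
    (Cfsg.Agent.Lib.Helper47.pCore_isPGroup q _).to_le h1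
  have h3 : IsPGroup p (S.map (QuotientGroup.mk' (pPrimeCore q X))) := hS.map _
  have h4 := IsPGroup.disjoint_of_ne p q hne _ _ h3 h2
  have h5 : S.map (QuotientGroup.mk' (pPrimeCore q X)) = ⊥ := disjoint_self.mp h4
  have h6 := (Subgroup.map_eq_bot_iff _).mp h5
  rwa [QuotientGroup.ker_mk'] at h6

/-- A subgroup of a group with a normal `p`-complement has a normal `p`-complement. -/
theorem hnpc_of_le {X : Type u} [Group X] [Finite X] {p : ℕ} [Fact p.Prime] {C H : Subgroup X}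
    (hHC : H ≤ C) (h : Cfsg.HasNormalPComplement p ↥C) : Cfsg.HasNormalPComplement p ↥H := by
  obtain ⟨N, hN⟩ := Cfsg.Agent.Lib.Helper54.hasNormalPComplement_iff.mp h
  have h2 := hN.subgroupOf (H.subgroupOf C)
  have h3 : Cfsg.HasNormalPComplement p ↥(H.subgroupOf C) :=
    Cfsg.Agent.Lib.Helper54.hasNormalPComplement_iff.mpr ⟨_, h2⟩
  exact Cfsg.Agent.Lib.Helper34.hnpc_of_surjective (Subgroup.subgroupOfEquivOfLe hHC).toMonoidHom
    (Subgroup.subgroupOfEquivOfLe hHC).surjective h3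

/-- Schur–Zassenhaus inside a subgroup `D`: a complement in `D` to `K ∩ D` for a normal Hall
subgroup `K`. -/
theorem exists_hall_compl {X : Type*} [Group X] [Finite X] (K D : Subgroup X) [K.Normal]
    (hcop : (Nat.card K).Coprime K.index) :
    ∃ H : Subgroup X, H ≤ D ∧ Nat.card H ∣ K.index ∧ H.relIndex D ∣ Nat.card K := by
  have h1 : Nat.card (K.subgroupOf D) ∣ Nat.card K :=
    Subgroup.card_comap_dvd_of_injective K D.subtype D.subtype_injective
  have h2 : (K.subgroupOf D).index ∣ K.index := Subgroup.relIndex_dvd_index_of_normal K D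
  have hc : (Nat.card (K.subgroupOf D)).Coprime (K.subgroupOf D).index :=
    Nat.Coprime.coprime_dvd_left h1 (Nat.Coprime.coprime_dvd_right h2 hcop)
  obtain ⟨H₀, hH₀⟩ := Subgroup.exists_right_complement'_of_coprime hc
  refine ⟨H₀.map D.subtype, Subgroup.map_subtype_le H₀, ?_, ?_⟩
  · rw [Subgroup.card_map_of_injective D.subtype_injective, ← hH₀.symm.index_eq_card]
    exact h2
  · have h3 : (H₀.map D.subtype).relIndex D = H₀.index := by
      unfold Subgroup.relIndex Subgroup.subgroupOf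
      rw [Subgroup.comap_map_eq_self_of_injective D.subtype_injective]
    rw [h3, hH₀.index_eq_card]
    exact h1

theorem dvd_card_of_mem_alpha {M : Subgroup G} {p : ℕ} (hp : p ∈ alpha M) :
    p ∣ Nat.card ↥M := by
  obtain ⟨hpp, hr⟩ := hp
  unfold PRankLE at hr
  push Not at hr
  obtain ⟨A, hAc, hAe, hAcard⟩ := hr
  haveI : Fact p.Prime := ⟨hpp⟩
  have hAp : IsPGroup p A := by
    intro a
    refine ⟨1, ?_⟩
    rw [pow_one]
    exact Subtype.ext (hAe a.1 a.2)
  obtain ⟨n, hn⟩ := IsPGroup.iff_card.mp hAp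
  have hn0 : n ≠ 0 := by
    rintro rfl
    rw [hn, pow_zero] at hAcard
    have := Nat.one_le_pow 2 p hpp.pos
    omega
  have h1 : p ∣ Nat.card A := by rw [hn]; exact dvd_pow_self p hn0
  exact h1.trans (Subgroup.card_subgroup_dvd_card A)

end General

section BG

variable {G : Type u} [Group G] [Finite G]

/-- `α(M) ⊆ σ(M)`, from Theorem 10.2. -/
theorem mem_sigma_of_mem_alpha (hG : IsMinSimpleOddOrder G)
    (h1405 : type_of% (@Cfsg.CfsgFrozen.S1405 G _ _ hG))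
    {M : Subgroup G} (hM : IsCoatom M) {p : ℕ} (hp : p ∈ alpha M) : p ∈ sigma M := by
  obtain ⟨hHall, -, hle, -, -⟩ := h1405 M hM
  have hpp := hp.1
  have hdvd := dvd_card_of_mem_alpha hp
  have h1 : ¬ p ∣ (alphaCore M).relIndex M := hHall.2.2 p hpp hp
  have h2 : Nat.card ↥M = Nat.card (alphaCore M) * (alphaCore M).relIndex M :=
    Cfsg.Agent.Lib.Helper1.card_eq_card_mul_relIndex hHall.1
  rw [h2] at hdvd
  have h3 : p ∣ Nat.card (alphaCore M) := ((Nat.Prime.dvd_mul hpp).mp hdvd).resolve_right h1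
  have h4 : p ∣ Nat.card (sigmaCore M) := h3.trans (Subgroup.card_dvd_of_le hle)
  exact Cfsg.Agent.Lib.Helper23.piCoreOf_isPi (sigma M) M p hpp h4

/-- For `p ∈ σ(M)`, some Sylow `p`-subgroup of `M` is a Sylow `p`-subgroup of `G` contained in
`M'`. -/
theorem sigma_sylow (hG : IsMinSimpleOddOrder G)
    (h1411 : type_of% (@Cfsg.CfsgFrozen.S1411 G _ _ hG))
    (M : Subgroup G) {p : ℕ} [Fact p.Prime] (hp : p ∈ sigma M) :
    ∃ (S : Sylow p ↥M) (P : Sylow p G), (P : Subgroup G) = (S : Subgroup ↥M).map M.subtype ∧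
      (S : Subgroup ↥M) ≤ commutator ↥M := by
  obtain ⟨-, -, S, hS⟩ := hp
  obtain ⟨P, hP⟩ := exists_sylow_eq_map M S hS
  obtain ⟨V, hV⟩ := exists_isComplIn_normalizer P
  have h1 := (h1411 p P V hV).2
  refine ⟨S, P, hP, ?_⟩
  have hN : Subgroup.normalizer ((P : Subgroup G) : Set G) ≤ M := by rw [hP]; exact hS
  have h2 : (P : Subgroup G) ≤ ⁅M, M⁆ := h1.trans (Subgroup.commutator_mono hN hN)
  intro s hs
  have h3 : (s : G) ∈ ⁅M, M⁆ := h2 (hP ▸ ⟨s, hs, rfl⟩)
  rw [← Subgroup.map_subtype_commutator] at h3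
  obtain ⟨c, hc, hcs⟩ := h3
  have h4 : c = s := Subtype.ext hcs
  exact h4 ▸ hc

/-- `M_σ ≤ M'`. -/
theorem piCore_sigma_le_commutator (hG : IsMinSimpleOddOrder G)
    (h1411 : type_of% (@Cfsg.CfsgFrozen.S1411 G _ _ hG)) (M : Subgroup G) :
    piCore (sigma M) ↥M ≤ commutator ↥M := by
  rw [← Subgroup.relIndex_eq_one]
  by_contra hne
  obtain ⟨q, hq, hqd⟩ := Nat.exists_prime_and_dvd hne
  haveI : Fact q.Prime := ⟨hq⟩
  have h1 : q ∣ Nat.card (piCore (sigma M) ↥M) := hqd.trans (Subgroup.relIndex_dvd_card _ _)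
  have hqσ : q ∈ sigma M := Cfsg.Agent.S3743.piCore_isPi (sigma M) q hq h1
  obtain ⟨S, P, -, hS⟩ := sigma_sylow hG h1411 M hqσ
  have h2 : q ∣ (commutator ↥M).index := hqd.trans (Subgroup.relIndex_dvd_index_of_normal _ _)
  have h3 : (commutator ↥M).index ∣ (S : Subgroup ↥M).index := Subgroup.index_dvd_of_le hS
  exact S.not_dvd_index (h2.trans h3)

/-- For a non-ideal prime `p ∈ α(M)`, some Sylow `p`-subgroup of `M` is narrow. -/
theorem narrow_sylow (hG : IsMinSimpleOddOrder G)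
    (h1405 : type_of% (@Cfsg.CfsgFrozen.S1405 G _ _ hG))
    {M : Subgroup G} (hM : IsCoatom M) {p : ℕ} [hp : Fact p.Prime] (hpα : p ∈ alpha M)
    (hideal : ¬ IsIdealPrime p G) :
    ∃ S : Sylow p ↥M, IsNarrow p ↥(S : Subgroup ↥M) := by
  have hpp := hp.out
  have hpM : p ∣ Nat.card M := dvd_card_of_mem_alpha hpα
  have hp2 : p ≠ 2 := prime_ne_two hG (hpM.trans (Subgroup.card_subgroup_dvd_card M))
  have hrG : ¬ PRankLE p 2 G := by
    intro h
    apply hpα.2
    intro A hAc hAe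
    have h1 := ea_map p M.subtype (B := A) ⟨hAc, hAe⟩
    have h2 := h (A.map M.subtype) h1.1 h1.2
    rwa [Subgroup.card_map_of_injective M.subtype_injective] at h2
  have h1 : ∃ (P : Sylow p G) (A : Subgroup G), A ≤ (P : Subgroup G) ∧
      IsElementaryAbelian p A ∧ Nat.card A = p ^ 2 ∧
      ∀ B : Subgroup G, B ≤ (P : Subgroup G) → IsElementaryAbelian p B → ¬ A < B := by
    by_contra hcon
    apply hideal
    refine ⟨hpp, hrG, ?_⟩
    intro P A hAP hAe hAc
    by_contra hB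
    exact hcon ⟨P, A, hAP, hAe, hAc, fun B hBP hBe hAB => hB ⟨B, hBP, hBe, hAB⟩⟩
  obtain ⟨P, A, hAP, hAe, hAc, hAmax⟩ := h1
  obtain ⟨-, -, S, hS⟩ := mem_sigma_of_mem_alpha hG h1405 hM hpα
  obtain ⟨Q, hQ⟩ := exists_sylow_eq_map M S hS
  refine ⟨S, ?_⟩
  -- every Sylow subgroup of `G` is the range of an injective homomorphism from `S`
  have hC : ∀ P₁ : Sylow p G, ∃ ι : ↥(S : Subgroup ↥M) →* G, Function.Injective ι ∧
      ι.range = (P₁ : Subgroup G) := by
    intro P₁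
    obtain ⟨g, hg⟩ := MulAction.exists_smul_eq G Q P₁
    refine ⟨(MulAut.conj g).toMonoidHom.comp (M.subtype.comp (S : Subgroup ↥M).subtype),
      (MulAut.conj g).injective.comp
        (M.subtype_injective.comp (Subgroup.subtype_injective _)), ?_⟩
    have hPQ : (P₁ : Subgroup G) =
        ((S : Subgroup ↥M).map M.subtype).map (MulAut.conj g).toMonoidHom := by
      rw [← hQ, ← hg]
      have h2 : ((g • Q : Sylow p G) : Subgroup G) = MulAut.conj g • (Q : Subgroup G) := rfl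
      rw [h2, Cfsg.Agent.Lib.Helper23.conj_smul_eq_mapConj]
    rw [hPQ]
    ext x
    constructor
    · rintro ⟨s, rfl⟩
      exact ⟨((s : ↥M) : G), ⟨(s : ↥M), s.2, rfl⟩, rfl⟩
    · rintro ⟨_, ⟨m, hm, rfl⟩, rfl⟩
      exact ⟨⟨m, hm⟩, rfl⟩
  -- rank at least three
  have hrS : ¬ PRankLE p 2 ↥(S : Subgroup ↥M) := by
    intro h
    unfold PRankLE at hrG
    push Not at hrG
    obtain ⟨D, hDc, hDe, hDcard⟩ := hrG
    have hDp : IsPGroup p D := by
      intro a
      refine ⟨1, ?_⟩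
      rw [pow_one]
      exact Subtype.ext (hDe a.1 a.2)
    obtain ⟨P₁, hP₁⟩ := hDp.exists_le_sylow
    obtain ⟨ι, hι, hr⟩ := hC P₁
    have h2 := ea_comap p ι hι (A := D) ⟨hDc, hDe⟩
    have h3 := h (D.comap ι) h2.1 h2.2
    rw [card_comap_of_le_range ι hι (hr ▸ hP₁)] at h3
    omega
  obtain ⟨ι, hι, hr⟩ := hC P
  have hAr : A ≤ ι.range := hr ▸ hAP
  refine isNarrow_of_max_ea p hp2 S.isPGroup' hrS (A.comap ι) (ea_comap p ι hι hAe) ?_ ?_
  · rw [card_comap_of_le_range ι hι hAr, hAc]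
  · exact max_ea_comap p ι hι hAr
      (fun B hB hBe hAB => (eq_of_le_of_not_lt hAB (hAmax B (hr ▸ hB) hBe)).symm)

/-- The consequences of S1450/S1455 for a prime `p ∉ β(M)` dividing `#M`. -/
theorem nonbeta_facts (hG : IsMinSimpleOddOrder G)
    (h1405 : type_of% (@Cfsg.CfsgFrozen.S1405 G _ _ hG))
    (h1410 : type_of% (@Cfsg.CfsgFrozen.S1410 G _ _ hG))
    (h1455 : ∀ (H : Type u) [Group H] [Finite H] [Group.IsSolvable H],
      type_of% (@Cfsg.CfsgFrozen.S1455 H _ _ _))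
    {M : Subgroup G} (hM : IsCoatom M) (p : ℕ) [Fact p.Prime] (hpM : p ∣ Nat.card M)
    (hpβ : p ∉ beta M) :
    (∀ q : ℕ, q.Prime → q ∣ (pPrimeCore p ↥M).index → q ≤ p) ∧
      HasNormalPComplement p ↥(commutator ↥M) ∧ commutator ↥M ≤ pPrimePCore p ↥M := by
  haveI : Group.IsSolvable ↥M := sub_isSolvable hG hM.1
  have hodd := sub_odd hG M
  by_cases hr : PRankLE p 2 ↥M
  · have h := Cfsg.Agent.S1450.result hodd p hpM hr
    exact ⟨h.1, h.2.2.1, h.2.2.2.2.1⟩
  · have hpα : p ∈ alpha M := ⟨Fact.out, hr⟩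
    have hideal : ¬ IsIdealPrime p G := fun h => hpβ ⟨hpα, h⟩
    obtain ⟨S, hS⟩ := narrow_sylow hG h1405 hM hpα hideal
    have h := h1455 ↥M hodd p hpM S hS (fun _ => h1410 p M hM.1)
    exact ⟨h.1, h.2.2.1, h.2.2.2.2.1⟩

/-- Bender–Glauberman Lemma 10.8 (the subgroup `M_β`), from S1405, S1410, S1411 and S1455. -/
theorem s1414_core (hG : IsMinSimpleOddOrder G)
    (h1405 : type_of% (@Cfsg.CfsgFrozen.S1405 G _ _ hG))
    (h1410 : type_of% (@Cfsg.CfsgFrozen.S1410 G _ _ hG))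
    (h1411 : type_of% (@Cfsg.CfsgFrozen.S1411 G _ _ hG))
    (h1455 : ∀ (H : Type u) [Group H] [Finite H] [Group.IsSolvable H],
      type_of% (@Cfsg.CfsgFrozen.S1455 H _ _ _))
    (M : Subgroup G) (hM : IsCoatom M) :
    Cfsg.IsPiHallOf (Cfsg.beta M) (Cfsg.piCoreOf (Cfsg.beta M) M) M ∧
      Cfsg.IsPiHall (Cfsg.beta M) (Cfsg.piCoreOf (Cfsg.beta M) M) ∧
      (∃ H : Subgroup G, Cfsg.IsPiHallOf {q | q.Prime ∧ q ∉ Cfsg.beta M} H ⁅M, M⁆ ∧
        Group.IsNilpotent H) ∧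
      (∃ H : Subgroup G, Cfsg.IsPiHallOf {q | q.Prime ∧ q ∉ Cfsg.beta M} H (Cfsg.sigmaCore M) ∧
        Group.IsNilpotent H) ∧
      ∀ p : ℕ, p.Prime → p ∣ Nat.card M → p ∉ Cfsg.beta M →
        Cfsg.HasNormalPComplement p ↥⁅M, M⁆ ∧ Cfsg.HasNormalPComplement p ↥(Cfsg.sigmaCore M) ∧
        ∀ q : ℕ, q.Prime → q ∣ (Cfsg.pPrimeCore p ↥M).index → q ≤ p := by
  classical
  have hF : ∀ p : ℕ, p.Prime → p ∣ Nat.card M → p ∉ beta M →
      (∀ q : ℕ, q.Prime → q ∣ (pPrimeCore p ↥M).index → q ≤ p) ∧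
      HasNormalPComplement p ↥(commutator ↥M) ∧ commutator ↥M ≤ pPrimePCore p ↥M := by
    intro p hp hpM hpβ
    haveI : Fact p.Prime := ⟨hp⟩
    exact nonbeta_facts hG h1405 h1410 h1455 hM p hpM hpβ
  have hσc := piCore_sigma_le_commutator hG h1411 M
  -- the normal Hall `β`-subgroup `K`
  set K : Subgroup ↥M := commutator ↥M ⊓
    ⨅ q : {q : ℕ // q.Prime ∧ q ∣ Nat.card M ∧ q ∉ beta M}, pPrimeCore q.1 ↥M with hKdef
  haveI hKn : K.Normal := by
    haveI : (⨅ q : {q : ℕ // q.Prime ∧ q ∣ Nat.card M ∧ q ∉ beta M},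
        pPrimeCore q.1 ↥M).Normal := Subgroup.normal_iInf_normal (fun q => inferInstance)
    exact inferInstance
  have hKβ : ∀ q : ℕ, q.Prime → q ∣ Nat.card K → q ∈ beta M := by
    intro q hq hqK
    by_contra hqβ
    have hqM : q ∣ Nat.card M := hqK.trans (Subgroup.card_subgroup_dvd_card K)
    have hle : K ≤ pPrimeCore q ↥M :=
      inf_le_right.trans (iInf_le (fun q : {q : ℕ // q.Prime ∧ q ∣ Nat.card M ∧ q ∉ beta M} =>
        pPrimeCore q.1 ↥M) ⟨q, hq, hqM, hqβ⟩)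
    have h1 : q ∣ Nat.card (pPrimeCore q ↥M) := hqK.trans (Subgroup.card_dvd_of_le hle)
    have h2 := Cfsg.Agent.Lib.Helper34.card_pPrimeCore_coprime q ↥M
    exact hq.ne_one (Nat.Coprime.eq_one_of_dvd h2.symm h1)
  have hKle : K ≤ piCore (beta M) ↥M := le_sSup ⟨hKn, hKβ⟩
  have hβS : ∀ p : ℕ, p ∈ beta M → ∀ [Fact p.Prime], ∃ (S : Sylow p ↥M) (P : Sylow p G),
      (P : Subgroup G) = (S : Subgroup ↥M).map M.subtype ∧ (S : Subgroup ↥M) ≤ K := by
    intro p hpβ _
    obtain ⟨S, P, hP, hS⟩ := sigma_sylow hG h1411 M (mem_sigma_of_mem_alpha hG h1405 hM hpβ.1)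
    refine ⟨S, P, hP, le_inf hS (le_iInf fun q => ?_)⟩
    have hne : p ≠ q.1 := fun h => q.2.2.2 (h ▸ hpβ)
    haveI : Fact q.1.Prime := ⟨q.2.1⟩
    exact le_pPrimeCore_of_le_pPrimePCore p q.1 hne _ S.isPGroup'
      (hS.trans (hF q.1 q.2.1 q.2.2.1 q.2.2.2).2.2)
  have hKidx : ∀ q : ℕ, q.Prime → q ∈ beta M → ¬ q ∣ K.index := by
    intro q hq hqβ hdvd
    haveI : Fact q.Prime := ⟨hq⟩
    obtain ⟨S, P, hP, hS⟩ := hβS q hqβ
    exact S.not_dvd_index (hdvd.trans (Subgroup.index_dvd_of_le hS))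
  have hcop : (Nat.card K).Coprime K.index :=
    Nat.coprime_of_dvd (fun q hq h1 h2 => hKidx q hq (hKβ q hq h1) h2)
  -- Hall `β'`-subgroups of subgroups of `M'`
  have hHall : ∀ D : Subgroup ↥M, D ≤ commutator ↥M →
      ∃ H : Subgroup G, IsPiHallOf {q | q.Prime ∧ q ∉ beta M} H (D.map M.subtype) ∧
        Group.IsNilpotent H := by
    intro D hD
    obtain ⟨H, hHD, hH1, hH2⟩ := exists_hall_compl K D hcop
    have hHβ : ∀ q : ℕ, q.Prime → q ∣ Nat.card H → q ∉ beta M :=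
      fun q hq hqH hqβ => hKidx q hq hqβ (hqH.trans hH1)
    refine ⟨H.map M.subtype, ⟨Subgroup.map_mono hHD, ?_, ?_⟩, ?_⟩
    · intro q hq hqH
      rw [Subgroup.card_map_of_injective M.subtype_injective] at hqH
      exact ⟨hq, hHβ q hq hqH⟩
    · intro q hq hqβ hdvd
      rw [Subgroup.relIndex_map_map_of_injective _ _ M.subtype_injective] at hdvd
      exact hqβ.2 (hKβ q hq (hdvd.trans hH2))
    · haveI : Group.IsNilpotent ↥H := by
        apply nilpotent_of_forall_npc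
        intro q hq hqH
        haveI : Fact q.Prime := ⟨hq⟩
        have hqM : q ∣ Nat.card M := hqH.trans (Subgroup.card_subgroup_dvd_card H)
        exact hnpc_of_le (hHD.trans hD) (hF q hq hqM (hHβ q hq hqH)).2.1
      exact Group.nilpotent_of_mulEquiv
        (Subgroup.equivMapOfInjective H M.subtype M.subtype_injective)
  refine ⟨?_, ?_, ?_, ?_, ?_⟩
  · refine ⟨Cfsg.Agent.Lib.Helper23.piCoreOf_le _ _,
      Cfsg.Agent.Lib.Helper23.piCoreOf_isPi _ _, ?_⟩
    intro p hp hpβ hdvd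
    haveI : Fact p.Prime := ⟨hp⟩
    obtain ⟨S, P, hP, hS⟩ := hβS p hpβ
    have h1 : (piCoreOf (beta M) M).relIndex M = (piCore (beta M) ↥M).index := by
      unfold piCoreOf Subgroup.relIndex Subgroup.subgroupOf
      rw [Subgroup.comap_map_eq_self_of_injective M.subtype_injective]
    rw [h1] at hdvd
    exact S.not_dvd_index (hdvd.trans (Subgroup.index_dvd_of_le (hS.trans hKle)))
  · refine ⟨Cfsg.Agent.Lib.Helper23.piCoreOf_isPi _ _, ?_⟩
    intro p hp hpβ hdvd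
    haveI : Fact p.Prime := ⟨hp⟩
    obtain ⟨S, P, hP, hS⟩ := hβS p hpβ
    have hle : (P : Subgroup G) ≤ piCoreOf (beta M) M := by
      rw [hP]
      exact Subgroup.map_mono (hS.trans hKle)
    exact P.not_dvd_index (hdvd.trans (Subgroup.index_dvd_of_le hle))
  · obtain ⟨H, hH, hHn⟩ := hHall (commutator ↥M) le_rfl
    rw [Subgroup.map_subtype_commutator] at hH
    exact ⟨H, hH, hHn⟩
  · obtain ⟨H, hH, hHn⟩ := hHall (piCore (sigma M) ↥M) hσc
    exact ⟨H, hH, hHn⟩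
  · intro p hp hpM hpβ
    haveI : Fact p.Prime := ⟨hp⟩
    obtain ⟨h1, h2, -⟩ := hF p hp hpM hpβ
    refine ⟨?_, ?_, h1⟩
    · have e : ↥(commutator ↥M) ≃* ↥⁅M, M⁆ :=
        (Subgroup.equivMapOfInjective (commutator ↥M) M.subtype M.subtype_injective).trans
          (MulEquiv.subgroupCongr (Subgroup.map_subtype_commutator M))
      exact Cfsg.Agent.Lib.Helper34.hnpc_of_surjective e.toMonoidHom e.surjective h2
    · have h3 : HasNormalPComplement p ↥(piCore (sigma M) ↥M) := hnpc_of_le hσc h2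
      exact Cfsg.Agent.Lib.Helper34.hnpc_of_surjective
        (Subgroup.equivMapOfInjective (piCore (sigma M) ↥M) M.subtype
          M.subtype_injective).toMonoidHom
        (Subgroup.equivMapOfInjective (piCore (sigma M) ↥M) M.subtype
          M.subtype_injective).surjective h3

end BG

end Cfsg.Agent.Lib.Helper46.BG
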